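import Cfsg.Agent.AbelianByClassTwo.Solvable
import Cfsg.Agent.S0572

/-!
The derived length of a product of an abelian group and a group of class at most two: if `N` is a
maximal normal subgroup avoiding `[B, B]`, a chief factor above `N` lies in a metabelian subgroup
and meets `[B, B]`.
-/

set_option autoImplicit false

namespace CfsgLib.AbelianByClassTwo

open scoped commutatorElement
open Cfsg CfsgLib

universe u

theorem derivedSeries_add_le {G : Type*} [Group G] (M : Subgroup G) {n : ℕ}
    (h : derivedSeries G n ≤ M) : ∀ i, derivedSeries G (n + i) ≤ (derivedSeries M i).map M.subtype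
  | 0 => by
    rw [derivedSeries_zero, ← MonoidHom.range_eq_map, Subgroup.range_subtype]
    exact h
  | i + 1 => by
    rw [← Nat.add_assoc, derivedSeries_succ, derivedSeries_succ, Subgroup.map_commutator]
    exact Subgroup.commutator_mono (derivedSeries_add_le M h i) (derivedSeries_add_le M h i)

theorem derived_le : ∀ (n : ℕ) (G : Type u) [Group G] [Finite G] (A B : Subgroup G),
    Nat.card G ≤ n → (∀ x ∈ A, ∀ y ∈ A, x * y = y * x) → ClassTwo B →
    (∀ g : G, ∃ a ∈ A, ∃ b ∈ B, g = a * b) →
    derivedSeries G (2 * (1 + (Nat.card ↥(⁅B, B⁆ : Subgroup G)).primeFactorsList.length)) = ⊥ := by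
  intro n
  induction n with
  | zero =>
    intro G _ _ A B hn
    exact absurd hn (by have := Nat.card_pos (α := G); omega)
  | succ n ih =>
  intro G _ _ A B hn hA hB hfac
  classical
  have hnilA : Group.IsNilpotent A :=
    haveI : IsMulCommutative A := IsMulCommutative.of_comm fun x y => Subtype.ext (hA x x.2 y y.2)
    open scoped IsMulCommutative in inferInstance
  have hnilB : Group.IsNilpotent B := by
    refine ⟨2, eq_top_iff.mpr fun x _ => ?_⟩
    rw [Subgroup.mem_upperCentralSeries_succ_iff]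
    intro y
    rw [Subgroup.upperCentralSeries_one, Subgroup.mem_center_iff]
    intro w
    exact Subtype.ext (by simpa [commutatorElement_def] using hB x x.2 y y.2 w w.2)
  haveI : Group.IsSolvable G :=
    isSolvable_of_product (Nat.card G) G le_rfl A B hA hB hnilA hnilB hfac
  have hIto : ∀ X : Subgroup G, (∀ g ∈ X, ∃ a ∈ A, a ∈ X ∧ ∃ b ∈ B, b ∈ X ∧ g = a * b) →
      (∀ u ∈ B, u ∈ X → ∀ v ∈ B, v ∈ X → u * v = v * u) → derivedSeries X 2 = ⊥ := by
    intro X hX hBX
    haveI : IsMulCommutative (A.subgroupOf X) :=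
      IsMulCommutative.of_comm fun u v => Subtype.ext (Subtype.ext (hA _ u.2 _ v.2))
    haveI : IsMulCommutative (B.subgroupOf X) :=
      IsMulCommutative.of_comm fun u v => Subtype.ext (Subtype.ext (hBX _ u.2 u.1.2 _ v.2 v.1.2))
    exact Cfsg.Agent.S0572.result (A.subgroupOf X) (B.subgroupOf X) fun g => by
      obtain ⟨a, ha, haX, b, hb, hbX, he⟩ := hX g g.2
      exact ⟨⟨a, haX⟩, ha, ⟨b, hbX⟩, hb, Subtype.ext he⟩
  by_cases hD : (⁅B, B⁆ : Subgroup G) = ⊥
  · have h2 : derivedSeries G 2 = ⊥ := by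
      haveI : IsMulCommutative A := IsMulCommutative.of_comm fun x y => Subtype.ext (hA x x.2 y y.2)
      haveI : IsMulCommutative B := IsMulCommutative.of_comm fun x y => Subtype.ext (by
        have h := Subgroup.commutator_mem_commutator (H₁ := B) (H₂ := B) x.2 y.2
        rw [hD, Subgroup.mem_bot, commutatorElement_eq_one_iff_mul_comm] at h
        exact h)
      exact Cfsg.Agent.S0572.result A B hfac
    rw [hD, Subgroup.card_bot, Nat.primeFactorsList_one, List.length_nil]
    exact h2
  -- a maximal normal subgroup avoiding the commutators of `B`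
  obtain ⟨N, hN⟩ := Set.Finite.exists_maximal (Set.toFinite {N : Subgroup G | N.Normal ∧ N ⊓ ⁅B, B⁆ = ⊥})
    ⟨⊥, inferInstance, bot_inf_eq _⟩
  haveI := hN.1.1
  obtain ⟨M, hM⟩ := Set.Finite.exists_minimal (Set.toFinite {M : Subgroup G | M.Normal ∧ N < M})
    ⟨⊤, inferInstance, lt_of_le_of_ne le_top fun e => hD (by
      have := hN.1.2; rwa [e, top_inf_eq] at this)⟩
  haveI := hM.1.1
  obtain ⟨z, hzM, hz1⟩ : ∃ z ∈ M ⊓ ⁅B, B⁆, z ≠ 1 :=
    (Subgroup.bot_or_exists_ne_one _).resolve_left fun e =>
      hM.1.2.not_ge (hN.2 ⟨inferInstance, e⟩ hM.1.2.le)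
  have hzc : ∀ y ∈ B, y * z = z * y := by
    intro y hy
    have hle : (⁅B, B⁆ : Subgroup G) ≤ Subgroup.centralizer {y} := by
      rw [Subgroup.commutator_le]
      intro u hu v hv
      rw [Subgroup.mem_centralizer_singleton_iff, commutatorElement_def]
      exact (hB u hu v hv y hy).symm
    exact (Subgroup.mem_centralizer_singleton_iff.mp (hle hzM.2)).symm
  set f := QuotientGroup.mk' N with hf
  have hfN : ∀ x : G, f x = 1 ↔ x ∈ N := fun x => QuotientGroup.eq_one_iff x
  have hNM : ∀ L : Subgroup G, L.Normal → N ≤ L → L ≤ M → L ≤ N ∨ L = M := by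
    intro L hL hNL hLM
    rcases hNL.lt_or_eq with h | h
    · exact Or.inr (le_antisymm hLM (hM.2 ⟨hL, h⟩ hLM))
    · exact Or.inl h.ge
  -- the chief factor is abelian
  have hMab : ∀ u ∈ M, ∀ v ∈ M, f u * f v = f v * f u := by
    intro u hu v hv
    rcases hNM (⁅M, M⁆ ⊔ N) inferInstance le_sup_right
      (sup_le (Subgroup.commutator_le_left M M) hM.1.2.le) with h | h
    · rw [← commutatorElement_eq_one_iff_mul_comm, ← map_commutatorElement, hfN]
      exact h (Subgroup.mem_sup_left (Subgroup.commutator_mem_commutator hu hv))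
    · exfalso
      have hmap : M.map f = ⁅M.map f, M.map f⁆ := by
        conv_lhs => rw [← h, Subgroup.map_sup, QuotientGroup.map_mk'_self, sup_bot_eq,
          Subgroup.map_commutator]
      haveI : Nontrivial (M.map f) := by
        rw [Subgroup.nontrivial_iff_ne_bot]
        intro e
        refine hM.1.2.not_ge fun x hx => ?_
        rw [← hfN, ← Subgroup.mem_bot, ← e]
        exact Subgroup.mem_map_of_mem f hx
      refine (IsSolvable.commutator_lt_top_of_nontrivial (M.map f)).ne ?_
      refine Subgroup.map_injective (M.map f).subtype_injective ?_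
      rw [Subgroup.map_subtype_commutator, ← MonoidHom.range_eq_map, Subgroup.range_subtype]
      exact hmap.symm
  have hcomM : ∀ a ∈ A, f a * f z = f z * f a → ∀ u ∈ M, f a * f u = f u * f a := by
    intro a ha hc
    set L := M ⊓ (Subgroup.centralizer ({f a} : Set (G ⧸ N))).comap f with hL
    have hcl : Subgroup.normalClosure ({z} : Set G) ≤ L := by
      rw [Subgroup.normalClosure, Subgroup.closure_le]
      intro w hw
      obtain ⟨z', hz', hzw⟩ := Group.mem_conjugatesOfSet_iff.1 hw
      obtain ⟨g, rfl⟩ := isConj_iff.1 hzw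
      obtain rfl : z' = z := hz'
      obtain ⟨a', ha', b', hb', rfl⟩ := hfac g
      have e : a' * b' * z' * (a' * b')⁻¹ = a' * z' * a'⁻¹ := by
        rw [mul_assoc a' b' z', hzc b' hb']; group
      refine ⟨Subgroup.Normal.conj_mem inferInstance _ hzM.1 _, ?_⟩
      rw [SetLike.mem_coe, Subgroup.mem_toSubmonoid, Subgroup.mem_comap, Subgroup.mem_centralizer_singleton_iff, e]
      have haa : f a' * f a = f a * f a' := by rw [← map_mul, ← map_mul, hA a' ha' a ha]
      simp only [map_mul, map_inv]
      calc f a' * f z' * (f a')⁻¹ * f a = f a' * (f z' * f a) * (f a')⁻¹ := by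
            rw [mul_assoc (f a' * f z'), (Commute.inv_left (show Commute (f a') (f a) from haa)).eq]
            group
        _ = f a' * (f a * f z') * (f a')⁻¹ := by rw [hc]
        _ = f a * (f a' * f z' * (f a')⁻¹) := by rw [← mul_assoc, haa]; group
    have hNL : N ≤ L := fun x hx => ⟨hM.1.2.le hx, by
      rw [SetLike.mem_coe, Subgroup.mem_toSubmonoid, Subgroup.mem_comap, Subgroup.mem_centralizer_singleton_iff,
        (hfN x).mpr hx, one_mul, mul_one]⟩
    rcases hNM (Subgroup.normalClosure ({z} : Set G) ⊔ N) inferInstance le_sup_right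
      (sup_le (hcl.trans inf_le_left) hM.1.2.le) with h | h
    · refine absurd (Subgroup.mem_bot.mp ?_) hz1
      rw [← hN.1.2]
      exact ⟨h (Subgroup.mem_sup_left (Subgroup.subset_normalClosure rfl)), hzM.2⟩
    · intro u hu
      have := (sup_le hcl hNL) (h ▸ hu)
      exact (Subgroup.mem_centralizer_singleton_iff.mp this.2).symm
  -- the factorised hull of `M`
  set X := (A ⊔ M) ⊓ (B ⊔ M) with hX
  have hBab : ∀ u ∈ B, u ∈ X → ∀ v ∈ B, v ∈ X → u * v = v * u := by
    have hdec : ∀ w ∈ B, w ∈ X → ∃ a ∈ A, ∃ m ∈ M, w = a * m ∧ ∀ x ∈ M, f a * f x = f x * f a := by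
      intro w hw hwX
      obtain ⟨a, ha, m, hm, rfl⟩ := Subgroup.mem_sup_of_normal_right.mp hwX.1
      refine ⟨a, ha, m, hm, rfl, hcomM a ha ?_⟩
      have h1 : f a * f m * f z = f z * (f a * f m) := by
        rw [← map_mul, ← map_mul, ← map_mul, hzc _ hw]
      rw [mul_assoc, hMab m hm z hzM.1, ← mul_assoc, ← mul_assoc] at h1
      exact mul_right_cancel h1
    intro u hu huX v hv hvX
    rw [← commutatorElement_eq_one_iff_mul_comm, ← Subgroup.mem_bot, ← hN.1.2]
    refine ⟨?_, Subgroup.commutator_mem_commutator hu hv⟩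
    obtain ⟨a, ha, m, hm, rfl, hca⟩ := hdec u hu huX
    obtain ⟨a', ha', m', hm', rfl, hca'⟩ := hdec v hv hvX
    rw [SetLike.mem_coe, Subgroup.mem_toSubmonoid, ← hfN, map_commutatorElement, commutatorElement_eq_one_iff_mul_comm]
    have haa : Commute (f a) (f a') := (show Commute a a' from hA a ha a' ha').map f
    simp only [map_mul]
    exact ((haa.mul_right (hca m' hm')).mul_left
      ((show Commute (f m) (f a') from (hca' m hm).symm).mul_right (hMab m hm m' hm'))).eq
  have hMX : M ≤ X := le_inf le_sup_right le_sup_right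
  have hXfac : ∀ g ∈ X, ∃ a ∈ A, a ∈ X ∧ ∃ b ∈ B, b ∈ X ∧ g = a * b := by
    intro g hg
    obtain ⟨a, ha, b, hb, rfl⟩ := hfac g
    have haBM : a ∈ B ⊔ M := by
      have := (B ⊔ M).mul_mem hg.2 (Subgroup.mem_sup_left (inv_mem hb))
      rwa [mul_inv_cancel_right] at this
    have hbAM : b ∈ A ⊔ M := by
      have := (A ⊔ M).mul_mem (Subgroup.mem_sup_left (inv_mem ha)) hg.1
      rwa [inv_mul_cancel_left] at this
    exact ⟨a, ha, ⟨Subgroup.mem_sup_left ha, haBM⟩, b, hb, ⟨hbAM, Subgroup.mem_sup_left hb⟩, rfl⟩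
  have hM2 : derivedSeries M 2 = ⊥ := by
    have h1 := map_derivedSeries_le_derivedSeries (Subgroup.inclusion hMX) 2
    rw [hIto X hXfac hBab, le_bot_iff] at h1
    exact (Subgroup.map_eq_bot_iff_of_injective _ (Subgroup.inclusion_injective hMX)).mp h1
  -- pass to the quotient by `M`
  set φ := QuotientGroup.mk' M with hφ
  have hcard : Nat.card (G ⧸ M) ≤ n := by
    have h1 := Subgroup.card_eq_card_quotient_mul_card_subgroup M
    have h2 : 1 < Nat.card M := by
      rw [Finite.one_lt_card_iff_nontrivial, Subgroup.nontrivial_iff_ne_bot]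
      exact ne_bot_of_gt hM.1.2
    have h3 := Nat.card_pos (α := G ⧸ M)
    nlinarith
  have hq := ih (G ⧸ M) (A.map φ) (B.map φ) hcard
    (by rintro _ ⟨x, hx, rfl⟩ _ ⟨y, hy, rfl⟩; rw [← map_mul, ← map_mul, hA x hx y hy])
    (by
      rintro _ ⟨x, hx, rfl⟩ _ ⟨y, hy, rfl⟩ _ ⟨w, hw, rfl⟩
      simp only [← map_mul, ← map_inv, hB x hx y hy w hw])
    (fun g => by
      obtain ⟨g, rfl⟩ := QuotientGroup.mk'_surjective M g
      obtain ⟨a, ha, b, hb, rfl⟩ := hfac g
      exact ⟨_, Subgroup.mem_map_of_mem _ ha, _, Subgroup.mem_map_of_mem _ hb, map_mul _ _ _⟩)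
  rw [← Subgroup.map_commutator] at hq
  set D := (⁅B, B⁆ : Subgroup G) with hDdef
  have hlen : (Nat.card ↥(D.map φ)).primeFactorsList.length + 1
      ≤ (Nat.card D).primeFactorsList.length := by
    have hker : (φ.comp D.subtype).ker ≠ ⊥ := by
      intro e
      have h1 : (⟨z, hzM.2⟩ : D) ∈ (φ.comp D.subtype).ker :=
        MonoidHom.mem_ker.mpr ((QuotientGroup.eq_one_iff z).mpr hzM.1)
      rw [e, Subgroup.mem_bot] at h1
      exact hz1 (congrArg Subtype.val h1)
    have hr : (φ.comp D.subtype).range = D.map φ := by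
      rw [MonoidHom.range_comp, Subgroup.range_subtype]
    have h1 := Subgroup.card_mul_index (φ.comp D.subtype).ker
    rw [Subgroup.index_ker, hr] at h1
    have h2 : 1 ≤ (Nat.card (φ.comp D.subtype).ker).primeFactorsList.length := by
      rw [Nat.one_le_iff_ne_zero, Ne, List.length_eq_zero_iff, Nat.primeFactorsList_eq_nil]
      rintro (h | h)
      · exact Nat.card_pos.ne' h
      · exact hker (Subgroup.card_eq_one.mp h)
    rw [← h1, (Nat.perm_primeFactorsList_mul Nat.card_pos.ne' Nat.card_pos.ne').length_eq,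
      List.length_append]
    omega
  set i := 2 * (1 + (Nat.card ↥(D.map φ)).primeFactorsList.length) with hi
  have hle : derivedSeries G i ≤ M := by
    rw [← QuotientGroup.ker_mk' M, ← Subgroup.map_eq_bot_iff, map_derivedSeries_eq (QuotientGroup.mk'_surjective M)]
    exact hq
  have h3 := derivedSeries_add_le M hle 2
  rw [hM2, Subgroup.map_bot] at h3
  exact le_bot_iff.mp ((derivedSeries_antitone G (by omega)).trans h3)

end CfsgLib.AbelianByClassTwo
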