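import Cfsg.Agent.NilProd.Main
import Cfsg.Agent.AbelianByClassTwo.Quadratic

/-!
No minimal non-solvable product of odd order of an abelian group and a nilpotent group of class
at most two of coprime orders: some element of the abelian factor would be central in the
normaliser of its Sylow subgroup, against Burnside's transfer.
-/

set_option autoImplicit false

namespace CfsgLib.AbelianByClassTwo

open scoped commutatorElement
open Cfsg CfsgLib CfsgLib.Uniqueness CfsgLib.NilProd

variable {G : Type*} [Group G]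

/-- Class at most two. -/
def ClassTwo (B : Subgroup G) : Prop :=
  ∀ x ∈ B, ∀ y ∈ B, ∀ w ∈ B, w * (x * y * x⁻¹ * y⁻¹) = x * y * x⁻¹ * y⁻¹ * w

variable [Finite G] {A B : Subgroup G}

theorem center_eq_bot (h : Cex A B) : Subgroup.center G = ⊥ := by
  refine h.normal_eq_bot inferInstance fun e => h.nsol ?_
  exact Group.isSolvable_of_comm fun x y =>
    (Subgroup.mem_center_iff.mp (e ▸ Subgroup.mem_top y) x)

theorem normalClosure_singleton (h : Cex A B) {z : G} (hz1 : z ≠ 1) :
    Subgroup.normalClosure ({z} : Set G) = ⊤ := by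
  refine (h.simple _ Subgroup.normalClosure_normal).resolve_left fun e => hz1 ?_
  have : z ∈ Subgroup.normalClosure ({z} : Set G) := Subgroup.subset_normalClosure rfl
  rwa [e, Subgroup.mem_bot] at this

/-- The centraliser of a nontrivial central element of `B` is `B`. -/
theorem mem_of_commute_central (h : Cex A B) (hA : ∀ x ∈ A, ∀ y ∈ A, x * y = y * x) {z : G}
    (hz1 : z ≠ 1) (hzc : ∀ y ∈ B, y * z = z * y) {g : G} (hg : g * z = z * g) : g ∈ B := by
  obtain ⟨α, hα, β, hβ, rfl⟩ := h.fac g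
  have hαz : α * z = z * α := by
    calc α * z = α * β * z * β⁻¹ := by
          rw [mul_assoc α β z, hzc β hβ]; group
      _ = z * α := by rw [hg]; group
  have hc : α ∈ Subgroup.center G := by
    have hle : Subgroup.normalClosure ({z} : Set G) ≤ Subgroup.centralizer ({α} : Set G) := by
      rw [Subgroup.normalClosure, Subgroup.closure_le]
      intro w hw
      obtain ⟨z', hz', hzw⟩ := Group.mem_conjugatesOfSet_iff.1 hw
      obtain ⟨g, rfl⟩ := isConj_iff.1 hzw
      obtain rfl : z' = z := hz'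
      obtain ⟨a', ha', b', hb', rfl⟩ := h.fac g
      rw [SetLike.mem_coe, Subgroup.mem_centralizer_singleton_iff]
      have e : a' * b' * z' * (a' * b')⁻¹ = a' * z' * a'⁻¹ := by
        rw [mul_assoc a' b' z', hzc b' hb']; group
      rw [e]
      calc a' * z' * a'⁻¹ * α = a' * (z' * α) * a'⁻¹ := by
            rw [mul_assoc (a' * z'), (Commute.inv_left (hA a' ha' α hα)).eq]; group
        _ = a' * (α * z') * a'⁻¹ := by rw [hαz]
        _ = α * (a' * z' * a'⁻¹) := by rw [← mul_assoc, hA a' ha' α hα]; group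
    rw [normalClosure_singleton h hz1] at hle
    exact Subgroup.mem_center_iff.mpr fun g =>
      Subgroup.mem_centralizer_singleton_iff.mp (hle (Subgroup.mem_top g))
  rw [center_eq_bot h, Subgroup.mem_bot] at hc
  rw [hc, one_mul]; exact hβ

theorem perfect (h : Cex A B) : commutator G = ⊤ := by
  refine (h.simple _ inferInstance).resolve_left fun e => h.nsol ?_
  exact Group.isSolvable_of_comm fun x y => by
    have h1 : x * y * x⁻¹ * y⁻¹ ∈ commutator G := by
      rw [← commutatorElement_def]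
      exact Subgroup.commutator_mem_commutator (Subgroup.mem_top _) (Subgroup.mem_top _)
    rw [e, Subgroup.mem_bot, mul_inv_eq_one, mul_inv_eq_iff_eq_mul] at h1
    exact h1

theorem hom_comm_eq_one (h : Cex A B) {W : Type*} [CommGroup W] (f : G →* W) (x : G) : f x = 1 :=
  MonoidHom.mem_ker.mp (Abelianization.commutator_subset_ker f
    (perfect h ▸ Subgroup.mem_top x))

/-- An element of a Sylow subgroup of `A` commuting with its normaliser is trivial. -/
theorem eq_one_of_central_normalizer (h : Cex A B) (hA : ∀ x ∈ A, ∀ y ∈ A, x * y = y * x)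
    {q : ℕ} [hq : Fact q.Prime] (hqA : q ∣ Nat.card A) {a : G} (haQ : a ∈ rCore q A)
    (hc : ∀ ε ∈ B, ε ∈ Subgroup.normalizer (rCore q A : Set G) → ε * a = a * ε) : a = 1 := by
  let Q : Sylow q G := Sylow.ofCard (rCore q A) (h.card_rCore_A hqA)
  have hQc : IsMulCommutative (Q : Subgroup G) :=
    IsMulCommutative.of_comm fun u v => Subtype.ext (hA u (rCore_le q A u.2) v (rCore_le q A v.2))
  have hN : ∀ n ∈ Subgroup.normalizer (rCore q A : Set G), n * a = a * n := by
    intro n hn
    obtain ⟨α, hα, β, hβ, rfl⟩ := h.fac n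
    have hβN : β ∈ Subgroup.normalizer (rCore q A : Set G) := by
      have := mul_mem (inv_mem (le_normalizer_rCore q A hα)) hn
      rwa [inv_mul_cancel_left] at this
    rw [mul_assoc, hc β hβ hβN, ← mul_assoc, hA α hα a (rCore_le q A haQ), mul_assoc]
  have key : ∀ (k : ℕ) (g₀ : G), g₀⁻¹ * a ^ k * g₀ ∈ (Q : Subgroup G) →
      g₀⁻¹ * a ^ k * g₀ = a ^ k := by
    intro k g₀ hk
    obtain ⟨n, hn, he⟩ := Q.conj_eq_normalizer_conj_of_mem (a ^ k) g₀ (pow_mem (show a ∈ (Q : Subgroup G) from haQ) k) hk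
    rw [he, mul_assoc, ← (Commute.pow_right (hN n hn) k).eq, inv_mul_cancel_left]
  open scoped IsMulCommutative in
  have ht : (⟨a ^ (Q : Subgroup G).index, MonoidHom.transfer_eq_pow_aux a key⟩ : (Q : Subgroup G)) = 1 := by
    have := MonoidHom.transfer_eq_pow (MonoidHom.id (Q : Subgroup G)) a key
    rw [hom_comm_eq_one h] at this
    exact this.symm
  have h1 : a ^ (Q : Subgroup G).index = 1 := congrArg Subtype.val ht
  obtain ⟨k, hk⟩ := orderOf_pow_of_mem (isPGroup_rCore (p := q) A) haQ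
  have h2 : (orderOf a).Coprime (Q : Subgroup G).index := by
    rw [hk]; exact ((hq.out.coprime_iff_not_dvd).mpr Q.not_dvd_index).pow_left k
  exact orderOf_eq_one_iff.mp (Nat.eq_one_of_dvd_coprimes h2 dvd_rfl
    (orderOf_dvd_of_pow_eq_one h1))

open scoped IsMulCommutative in
/-- If some element of `A` of order `q` normalises a nontrivial abelian `p`-subgroup normal in
`B`, it commutes with the elements of `B` normalising the Sylow `q`-subgroup of `A`. -/
theorem commute_of_normalizes (h : Cex A B) (hA : ∀ x ∈ A, ∀ y ∈ A, x * y = y * x)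
    (hB : ClassTwo B) {p q : ℕ} [hp : Fact p.Prime] [hq : Fact q.Prime] (hp2 : p ≠ 2)
    (hpq : p ≠ q) {U : Subgroup G} (hUp : IsPGroup p U) (hUB : U ≤ B) (hU1 : U ≠ ⊥)
    (hUn : B ≤ Subgroup.normalizer (U : Set G)) (hUc : ∀ u ∈ U, ∀ v ∈ U, u * v = v * u)
    {a : G} (ha : a ∈ rCore q A) (hao : orderOf a = q)
    (haN : a ∈ Subgroup.normalizer (U : Set G))
    {ε : G} (hε : ε ∈ B) (hεN : ε ∈ Subgroup.normalizer (rCore q A : Set G)) :
    ε * a = a * ε := by
  haveI : IsMulCommutative U := IsMulCommutative.of_comm fun u v => Subtype.ext (hUc u u.2 v v.2)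
  obtain ⟨ψ, hψ⟩ : ∃ ψ : Subgroup.normalizer (U : Set G) →* AddMonoid.End (Additive U),
      ∀ g v, ((Additive.toMul (ψ g v) : U) : G) = (g : G) * ((Additive.toMul v : U) : G) * (g : G)⁻¹ :=
    ⟨{ toFun := fun g => MonoidHom.toAdditive
          ({ toFun := fun u => ⟨(g : G) * u * (g : G)⁻¹, (Subgroup.mem_normalizer_iff.mp g.2 u).mp u.2⟩
             map_one' := Subtype.ext (by simp)
             map_mul' := fun u v => Subtype.ext (by simp [mul_assoc]) } : U →* U)
       map_one' := by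
         refine DFunLike.ext _ _ fun v => Additive.toMul.injective (Subtype.ext ?_)
         show (1 : G) * _ * (1 : G)⁻¹ = _
         simp
       map_mul' := fun g g' => by
         refine DFunLike.ext _ _ fun v => Additive.toMul.injective (Subtype.ext ?_)
         show (g : G) * (g' : G) * _ * ((g : G) * (g' : G))⁻¹ = (g : G) * ((g' : G) * _ * (g' : G)⁻¹) * (g : G)⁻¹
         group }, fun g v => rfl⟩
  let εN : Subgroup.normalizer (U : Set G) := ⟨ε, hUn hε⟩
  let aN : Subgroup.normalizer (U : Set G) := ⟨a, haN⟩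
  have hann : (ψ εN - 1) * (ψ εN - 1) = (0 : AddMonoid.End (Additive U)) := by
    refine DFunLike.ext _ _ fun v => ?_
    change ψ εN (ψ εN v - v) - (ψ εN v - v) = 0
    rw [sub_eq_zero]
    refine Additive.toMul.injective (Subtype.ext ?_)
    rw [hψ, toMul_sub, Subgroup.coe_div, hψ, div_eq_mul_inv]
    set u : G := ((Additive.toMul v : U) : G) with hu
    rw [hB ε hε u (hUB (Additive.toMul v).2) ε hε, mul_inv_cancel_right]
  have hcomm : ∀ g : Subgroup.normalizer (U : Set G), (g : G) ∈ Subgroup.normalizer (rCore q A : Set G) →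
      Commute (ψ aN) (ψ (g * aN * g⁻¹)) := by
    intro g hg
    refine (show Commute aN (g * aN * g⁻¹) from Subtype.ext ?_).map ψ
    exact hA a (rCore_le q A ha) _ (rCore_le q A ((Subgroup.mem_normalizer_iff.mp hg a).mp ha))
  have hinv : ψ εN⁻¹ = 1 - (ψ εN - 1) := by
    have e : (1 - (ψ εN - 1)) * ψ εN = 1 := by
      have e' : ∀ n : AddMonoid.End (Additive U), (1 - n) * (1 + n) = 1 - n * n := fun n => by
        rw [sub_mul, one_mul, mul_add, mul_one]; abel
      have := e' (ψ εN - 1)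
      rwa [add_sub_cancel, hann, sub_zero] at this
    calc ψ εN⁻¹ = (1 - (ψ εN - 1)) * ψ εN * ψ εN⁻¹ := by rw [e, one_mul]
      _ = _ := by rw [mul_assoc, ← map_mul, mul_inv_cancel, map_one, mul_one]
  have htors : ∀ m : ℕ, m.Coprime p → ∀ x : AddMonoid.End (Additive U), m • x = 0 → x = 0 := by
    intro m hm x hx
    refine DFunLike.ext _ _ fun v => ?_
    have h1 : m • x v = 0 := congrArg (fun f : AddMonoid.End (Additive U) => f v) hx
    obtain ⟨k, hk⟩ := IsPGroup.iff_orderOf.mp hUp (Additive.toMul (x v))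
    have h2 : addOrderOf (x v) ∣ m := addOrderOf_dvd_of_nsmul_eq_zero h1
    have h3 : addOrderOf (x v) = p ^ k := by rw [← hk, ← addOrderOf_ofMul_eq_orderOf, ofMul_toMul]
    exact AddMonoid.addOrderOf_eq_one_iff.mp
      (Nat.eq_one_of_dvd_coprimes (hm.pow_right k) h2 (h3 ▸ dvd_rfl))
  have hcs : Commute (ψ εN) (ψ aN) := by
    have h1 := hcomm εN (by simpa [εN] using hεN)
    have h2 := hcomm εN⁻¹ (by simpa [εN] using inv_mem hεN)
    rw [map_mul, map_mul, hinv] at h1
    rw [map_mul, map_mul, inv_inv, hinv] at h2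
    have h0 : ψ εN = 1 + (ψ εN - 1) := by abel
    rw [show ψ εN * ψ aN * (1 - (ψ εN - 1)) = (1 + (ψ εN - 1)) * ψ aN * (1 - (ψ εN - 1)) by
      rw [← h0]] at h1
    rw [show (1 - (ψ εN - 1)) * ψ aN * ψ εN = (1 - (ψ εN - 1)) * ψ aN * (1 + (ψ εN - 1)) by
      rw [← h0]] at h2
    have hsq : ψ aN ^ q = 1 := by
      rw [← map_pow, show aN ^ q = 1 from Subtype.ext (by
        simp [aN, ← hao, pow_orderOf_eq_one]), map_one]
    have := commute_of_quadratic (ψ aN) (ψ εN - 1) hq.out.pos hann hsq h1 h2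
      (fun x hx => htors 2 ((Nat.coprime_primes Nat.prime_two hp.out).mpr hp2.symm) x
        (by rw [two_nsmul]; exact hx))
      (htors q ((Nat.coprime_primes hq.out hp.out).mpr hpq.symm))
    have e := this.add_left (Commute.one_left (ψ aN))
    rwa [sub_add_cancel] at e
  set c := ε * a * ε⁻¹ * a⁻¹ with hc
  have hcA : c ∈ A :=
    mul_mem (rCore_le q A ((Subgroup.mem_normalizer_iff.mp hεN a).mp ha))
      (inv_mem (rCore_le q A ha))
  have hcfix : ∀ u ∈ U, c * u * c⁻¹ = u := by
    intro u hu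
    have e : ψ (εN * aN * εN⁻¹ * aN⁻¹) = 1 := by
      rw [map_mul, map_mul, map_mul, hcs.eq, mul_assoc (ψ aN), ← map_mul, mul_inv_cancel, map_one,
        mul_one, ← map_mul, mul_inv_cancel, map_one]
    have h1 := hψ (εN * aN * εN⁻¹ * aN⁻¹) (Additive.ofMul ⟨u, hu⟩)
    rw [e] at h1
    exact h1.symm
  -- a central element of `B` inside `U`
  obtain ⟨z, hzU, hz1, hzc⟩ : ∃ z ∈ U, z ≠ 1 ∧ ∀ y ∈ B, y * z = z * y := by
    by_cases hcent : ∀ u ∈ U, ∀ y ∈ B, y * u = u * y
    · obtain ⟨u, hu, hu1⟩ := U.bot_or_exists_ne_one.resolve_left hU1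
      exact ⟨u, hu, hu1, hcent u hu⟩
    · push Not at hcent
      obtain ⟨u, hu, y, hy, hne⟩ := hcent
      refine ⟨y * u * y⁻¹ * u⁻¹, mul_mem ((Subgroup.mem_normalizer_iff.mp (hUn hy) u).mp hu)
        (inv_mem hu), fun e => hne ?_, fun w hw => hB y hy u (hUB hu) w hw⟩
      rwa [mul_inv_eq_one, mul_inv_eq_iff_eq_mul] at e
  have hcB : c ∈ B := mem_of_commute_central h hA hz1 hzc (by
    have := hcfix z hzU; rwa [mul_inv_eq_iff_eq_mul] at this)
  have h1 := h.disjoint hcA hcB
  rwa [hc, mul_inv_eq_one, mul_inv_eq_iff_eq_mul] at h1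

/-- Some nontrivial element of `A` normalises an abelian `p`-subgroup normal in `B`. -/
theorem exists_normalizes (h : Cex A B) (hA : ∀ x ∈ A, ∀ y ∈ A, x * y = y * x)
    (hB : ClassTwo B) {p : ℕ} [hp : Fact p.Prime] (hpB : p ∣ Nat.card B) :
    ∃ U : Subgroup G, IsPGroup p U ∧ U ≤ B ∧ U ≠ ⊥ ∧ B ≤ Subgroup.normalizer (U : Set G) ∧
      (∀ u ∈ U, ∀ v ∈ U, u * v = v * u) ∧
      ∃ a ∈ A, a ≠ 1 ∧ a ∈ Subgroup.normalizer (U : Set G) := by
  classical
  by_contra hcon
  set P := rCore p B with hP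
  have hPB : P ≤ B := rCore_le p B
  have hPp : IsPGroup p P := isPGroup_rCore B
  have hPcard : Nat.card P = p ^ (Nat.card G).factorization p := h.symm.card_rCore_A hpB
  have hP1 : P ≠ ⊥ := h.symm.rCore_A_ne_bot hpB
  have hmemP : ∀ x ∈ B, ∀ T : Subgroup G, IsPGroup p T → x ∈ T → x ∈ P := by
    intro x hx T hT hxT
    obtain ⟨k, hk⟩ := orderOf_pow_of_mem hT hxT
    exact mem_rCore_of_orderOf h.nilB hx hk
  -- normalisers of normal `p`-subgroups of `B` stay in `B`
  have hnorm : ∀ U : Subgroup G, IsPGroup p U → U ≤ B → U ≠ ⊥ →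
      B ≤ Subgroup.normalizer (U : Set G) → Subgroup.normalizer (U : Set G) ≤ B := by
    intro U hUp hUB hU1 hUn g hg
    let V := U ⊓ Subgroup.centralizer (U : Set G)
    have hVn : Subgroup.normalizer (U : Set G) ≤ Subgroup.normalizer (V : Set G) := by
      intro w hw
      refine mem_normalizer_of_forall fun v hv => ?_
      refine ⟨(Subgroup.mem_normalizer_iff.mp hw v).mp hv.1, ?_⟩
      show _ ∈ Subgroup.centralizer _
      rw [Subgroup.mem_centralizer_iff]
      intro u hu
      have h1 : w⁻¹ * u * w ∈ U := by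
        simpa using (Subgroup.mem_normalizer_iff.mp (inv_mem hw) u).mp hu
      have h2 := Subgroup.mem_centralizer_iff.mp hv.2 _ h1
      calc u * (w * v * w⁻¹) = w * (w⁻¹ * u * w * v) * w⁻¹ := by group
        _ = w * (v * (w⁻¹ * u * w)) * w⁻¹ := by rw [h2]
        _ = _ := by group
    have hV1 : V ≠ ⊥ := by
      haveI : Nontrivial U := (Subgroup.nontrivial_iff_ne_bot U).mpr hU1
      haveI : Nontrivial (Subgroup.center U) := hUp.center_nontrivial
      obtain ⟨⟨u, hu⟩, hu1⟩ := exists_ne (1 : Subgroup.center U)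
      intro e
      have : (u : G) ∈ V := ⟨u.2, Subgroup.mem_centralizer_iff.mpr fun w hw =>
        congrArg Subtype.val (Subgroup.mem_center_iff.mp hu ⟨w, hw⟩)⟩
      rw [e, Subgroup.mem_bot] at this
      exact hu1 (Subtype.ext (Subtype.ext this))
    obtain ⟨α, hα, β, hβ, rfl⟩ := h.fac g
    have hα' : α = 1 := by
      by_contra hne
      refine hcon ⟨V, hUp.to_le inf_le_left, inf_le_left.trans hUB, hV1, hUn.trans hVn,
        fun u hu v hv => (Subgroup.mem_centralizer_iff.mp hv.2 u hu.1), α, hα, hne, ?_⟩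
      have := mul_mem (hVn hg) (inv_mem (hVn (hUn hβ)))
      rwa [mul_inv_cancel_right] at this
    rw [hα', one_mul]; exact hβ
  -- centralisers in `P` are Sylow in the centralisers
  have hRn : ∀ x ∈ P, B ≤ Subgroup.normalizer ((P ⊓ Subgroup.centralizer {x} : Subgroup G) : Set G) := by
    intro x hx y hy
    refine mem_normalizer_of_forall fun r hr => ⟨(Subgroup.mem_normalizer_iff.mp
      (le_normalizer_rCore p B hy) r).mp hr.1, ?_⟩
    have hr2 := Subgroup.mem_centralizer_singleton_iff.mp hr.2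
    show _ ∈ Subgroup.centralizer _
    rw [Subgroup.mem_centralizer_singleton_iff]
    have hc := hB y hy r (hPB hr.1) x (hPB hx)
    calc y * r * y⁻¹ * x = (y * r * y⁻¹ * r⁻¹) * (r * x) := by group
      _ = (y * r * y⁻¹ * r⁻¹) * (x * r) := by rw [hr2]
      _ = ((y * r * y⁻¹ * r⁻¹) * x) * r := by group
      _ = (x * (y * r * y⁻¹ * r⁻¹)) * r := by rw [hc]
      _ = _ := by group
  have hsyl : ∀ x ∈ P, ∀ T : Subgroup G, IsPGroup p T → T ≤ Subgroup.centralizer {x} →
      P ⊓ Subgroup.centralizer {x} ≤ T → T ≤ P := by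
    intro x hx T hT hTc hRT
    set R := P ⊓ Subgroup.centralizer {x} with hR
    by_contra hnot
    have hne : R.subgroupOf T ≠ ⊤ := fun e => hnot ((Subgroup.subgroupOf_eq_top.mp e).trans inf_le_left)
    have hR1 : R ≠ ⊥ := by
      intro e
      obtain ⟨z, hzB, hzo, hzc⟩ := exists_central h.nilB hpB
      have hzR : z ∈ R := ⟨mem_rCore_of_orderOf h.nilB (k := 1) hzB (by rw [hzo, pow_one]),
        Subgroup.mem_centralizer_singleton_iff.mpr (hzc x (hPB hx)).symm⟩
      rw [e, Subgroup.mem_bot] at hzR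
      rw [hzR, orderOf_one] at hzo
      exact hp.out.ne_one hzo.symm
    haveI : Group.IsNilpotent T := hT.isNilpotent
    obtain ⟨⟨n, hnT⟩, hn, hn'⟩ := SetLike.exists_of_lt
      ((Group.normalizerCondition_of_isNilpotent (G := T)) _ (lt_top_iff_ne_top.mpr hne))
    have hnN : n ∈ Subgroup.normalizer (R : Set G) := mem_normalizer_of_forall fun w hw =>
      (Subgroup.mem_normalizer_iff.mp hn ⟨w, hRT hw⟩).mp hw
    have hnB : n ∈ B := hnorm R (hPp.to_le inf_le_left) (inf_le_left.trans hPB) hR1 (hRn x hx) hnN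
    exact hn' ⟨hmemP n hnB T hT hnT, hTc hnT⟩
  -- `p`-subgroups of the centraliser of `x` move into `P` inside that centraliser
  have hmove : ∀ x ∈ P, ∀ T : Subgroup G, IsPGroup p T → T ≤ Subgroup.centralizer {x} →
      ∃ j ∈ Subgroup.centralizer ({x} : Set G), ∀ t ∈ T, j * t * j⁻¹ ∈ P := by
    intro x hx T hT hTc
    obtain ⟨S₀, hS₀⟩ := ((hPp.to_le (inf_le_left : P ⊓ Subgroup.centralizer {x} ≤ P)).comap_of_injective
      (Subgroup.centralizer ({x} : Set G)).subtype Subtype.coe_injective).exists_le_sylow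
    obtain ⟨S₁, hS₁⟩ := (hT.comap_of_injective
      (Subgroup.centralizer ({x} : Set G)).subtype Subtype.coe_injective).exists_le_sylow
    obtain ⟨j, hj⟩ := MulAction.exists_smul_eq (Subgroup.centralizer ({x} : Set G)) S₁ S₀
    refine ⟨j, j.2, fun t ht => ?_⟩
    have h1 : j * ⟨t, hTc ht⟩ * j⁻¹ ∈ ((j • S₁ : Sylow p _) : Subgroup _) :=
      ⟨⟨t, hTc ht⟩, hS₁ ht, by simp⟩
    rw [hj] at h1
    exact hsyl x hx (((S₀ : Subgroup _)).map (Subgroup.centralizer ({x} : Set G)).subtype)
      (S₀.isPGroup'.map _) (Subgroup.map_subtype_le _)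
      (fun r hr => ⟨⟨r, hr.2⟩, hS₀ hr, rfl⟩) ⟨_, h1, rfl⟩
  have hPn : Subgroup.normalizer (P : Set G) ≤ B :=
    hnorm P hPp hPB hP1 (le_normalizer_rCore p B)
  obtain ⟨z, hzB, hzo, hzc⟩ := exists_central h.nilB hpB
  have hz1 : z ≠ 1 := fun e => hp.out.ne_one (by rw [← hzo, e, orderOf_one])
  have hzP : z ∈ P := mem_rCore_of_orderOf h.nilB (k := 1) hzB (by rw [hzo, pow_one])
  -- a conjugate of `z` lies in `P` only through `B`
  have hzfus : ∀ g : G, g * z * g⁻¹ ∈ P → g ∈ B := by
    intro g hg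
    obtain ⟨α, hα, β, hβ, rfl⟩ := h.fac g
    have e : α * β * z * (α * β)⁻¹ = α * z * α⁻¹ := by
      rw [mul_assoc α β z, hzc β hβ]; group
    rw [e] at hg
    set w := α * z * α⁻¹ with hw
    have hT : IsPGroup p (P.map (MulAut.conj α).toMonoidHom) := hPp.map _
    have hTc : P.map (MulAut.conj α).toMonoidHom ≤ Subgroup.centralizer {w} := by
      rintro _ ⟨t, ht, rfl⟩
      rw [Subgroup.mem_centralizer_singleton_iff]
      change α * t * α⁻¹ * (α * z * α⁻¹) = α * z * α⁻¹ * (α * t * α⁻¹)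
      calc α * t * α⁻¹ * (α * z * α⁻¹) = α * (t * z) * α⁻¹ := by group
        _ = α * (z * t) * α⁻¹ := by rw [hzc t (hPB ht)]
        _ = _ := by group
    obtain ⟨j, hj, hjT⟩ := hmove w hg _ hT hTc
    have hn : j * α ∈ Subgroup.normalizer (P : Set G) := mem_normalizer_of_forall fun t ht => by
      have := hjT _ ⟨t, ht, rfl⟩
      simpa [mul_assoc] using this
    have hjB := hPn hn
    have h2 : j * w * j⁻¹ = z := by
      have h3 : j * α * z = z * (j * α) := hzc _ hjB
      calc j * w * j⁻¹ = j * α * z * (j * α)⁻¹ := by rw [hw]; group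
        _ = z := by rw [h3]; group
    rw [Subgroup.mem_centralizer_singleton_iff.mp hj] at h2
    rw [mul_inv_cancel_right] at h2
    have hαB : α ∈ B := mem_of_commute_central h hA hz1 hzc (by
      rw [hw, mul_inv_eq_iff_eq_mul] at h2; exact h2)
    exact mul_mem hαB hβ
  -- fusion in `P` is realised in `B`
  have hfus : ∀ x ∈ P, ∀ g : G, g * x * g⁻¹ ∈ P → ∃ β ∈ B, g * x * g⁻¹ = β * x * β⁻¹ := by
    intro x hx g hg
    obtain ⟨j, hj, hjz⟩ := hmove (g * x * g⁻¹) hg (Subgroup.zpowers (g * z * g⁻¹))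
      (IsPGroup.of_card (n := 1) (by
        rw [Nat.card_zpowers, pow_one, ← hzo]
        exact (MulEquiv.orderOf_eq (MulAut.conj g) z)))
      (by
        rw [Subgroup.zpowers_le, Subgroup.mem_centralizer_singleton_iff]
        calc g * z * g⁻¹ * (g * x * g⁻¹) = g * (z * x) * g⁻¹ := by group
          _ = g * (x * z) * g⁻¹ := by rw [hzc x (hPB hx)]
          _ = _ := by group)
    have hjg : j * g ∈ B := hzfus _ (by
      have := hjz _ (Subgroup.mem_zpowers _)
      simpa [mul_assoc] using this)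
    refine ⟨j * g, hjg, ?_⟩
    calc g * x * g⁻¹ = (g * x * g⁻¹) * j * j⁻¹ := by group
      _ = j * (g * x * g⁻¹) * j⁻¹ := by rw [Subgroup.mem_centralizer_singleton_iff.mp hj]
      _ = _ := by group
  -- transfer into the abelianisation of `B`
  let ϕ : B →* Abelianization B := Abelianization.of
  have hkill : ∀ x : B, (x : G) ∈ P → x ∈ commutator B := by
    intro x hx
    haveI : Fintype (Quotient (MulAction.orbitRel (Subgroup.zpowers (x : G)) (G ⧸ B))) :=
      Fintype.ofFinite _
    have ht := MonoidHom.transfer_eq_prod_quotient_orbitRel_zpowers_quot ϕ (x : G)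
    rw [hom_comm_eq_one h] at ht
    have hterm : ∀ (m : ℕ) (u : G) (hm : u⁻¹ * (x : G) ^ m * u ∈ B),
        ϕ ⟨u⁻¹ * (x : G) ^ m * u, hm⟩ = ϕ x ^ m := by
      intro m u hm
      have hmP : u⁻¹ * (x : G) ^ m * u ∈ P :=
        hmemP _ hm (P.map (MulAut.conj u⁻¹).toMonoidHom) (hPp.map _)
          ⟨(x : G) ^ m, pow_mem hx m, by simp⟩
      obtain ⟨β, hβ, he⟩ := hfus _ (pow_mem hx m) u⁻¹ (by simpa using hmP)
      rw [inv_inv] at he
      rw [show (⟨u⁻¹ * (x : G) ^ m * u, hm⟩ : B) = ⟨β, hβ⟩ * x ^ m * ⟨β, hβ⟩⁻¹ from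
        Subtype.ext (by simpa using he), map_mul, map_mul, map_inv, mul_inv_cancel_comm, map_pow]
    simp only [hterm, Finset.prod_pow_eq_pow_sum] at ht
    have hsum : ∑ q : Quotient (MulAction.orbitRel (Subgroup.zpowers (x : G)) (G ⧸ B)),
        Function.minimalPeriod ((x : G) • ·) q.out = B.index := (B.index_eq_sum_minimalPeriod (x : G)).symm
    rw [hsum] at ht
    obtain ⟨k, hk⟩ := orderOf_pow_of_mem hPp hx
    have hcop : (orderOf (x : G)).Coprime B.index := by
      have hidx : B.index = Nat.card A := by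
        have h1 := B.card_mul_index
        rw [h.card_eq, mul_comm (Nat.card A)] at h1
        exact Nat.eq_of_mul_eq_mul_left Nat.card_pos h1
      rw [hidx, hk]
      exact ((hp.out.coprime_iff_not_dvd).mpr fun hd =>
        hp.out.ne_one (Nat.eq_one_of_dvd_coprimes h.cop hd hpB)).pow_left k
    rw [← Abelianization.ker_of]
    exact MonoidHom.mem_ker.mpr (orderOf_eq_one_iff.mp (Nat.eq_one_of_dvd_coprimes hcop
      (Subgroup.orderOf_coe x ▸ orderOf_map_dvd ϕ x) (orderOf_dvd_of_pow_eq_one ht.symm)))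
  have hD : ∀ x ∈ commutator B, ∀ w : B, w * x = x * w := by
    have : commutator B ≤ Subgroup.center B := by
      rw [commutator_def, Subgroup.commutator_le]
      intro u _ v _
      rw [Subgroup.mem_center_iff]
      intro w
      exact Subtype.ext (by simpa [commutatorElement_def] using hB u u.2 v v.2 w w.2)
    exact fun x hx w => Subgroup.mem_center_iff.mp (this hx) w
  have hPcent : ∀ x ∈ P, ∀ w ∈ B, w * x = x * w := fun x hx w hw =>
    congrArg Subtype.val (hD ⟨x, hPB hx⟩ (hkill ⟨x, hPB hx⟩ hx) ⟨w, hw⟩)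
  set m := ordCompl[p] (Nat.card B) with hm
  have hpow : ∀ x : B, ((x : G) ^ m) ∈ P := by
    intro x
    have hcm : orderOf ((x : G) ^ m) ∣ p ^ (Nat.card B).factorization p := by
      refine orderOf_dvd_of_pow_eq_one ?_
      rw [← pow_mul, mul_comm, hm, Nat.ordProj_mul_ordCompl_eq_self]
      exact congrArg Subtype.val (pow_card_eq_one' (x := x))
    obtain ⟨i, -, hi⟩ := (Nat.dvd_prime_pow hp.out).mp hcm
    exact mem_rCore_of_orderOf h.nilB (pow_mem x.2 m) hi
  -- the commutator map is bilinear, so commutators have order dividing `m`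
  have hexp : ∀ c ∈ commutator B, c ^ m = 1 := by
    have hle : commutator B ≤ Subgroup.closure {c : B | c ^ m = 1 ∧ ∀ w : B, w * c = c * w} := by
      rw [commutator_def, Subgroup.commutator_le]
      intro u _ v _
      refine Subgroup.subset_closure ⟨?_, fun w =>
        hD _ (Subgroup.commutator_mem_commutator (Subgroup.mem_top _) (Subgroup.mem_top _)) w⟩
      have hc : ∀ w : B, w * ⁅u, v⁆ = ⁅u, v⁆ * w := fun w =>
        hD _ (Subgroup.commutator_mem_commutator (Subgroup.mem_top _) (Subgroup.mem_top _)) w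
      have hconj : u * v * u⁻¹ = ⁅u, v⁆ * v := by rw [commutatorElement_def]; group
      have h1 : u * v ^ m * u⁻¹ = ⁅u, v⁆ ^ m * v ^ m := by
        rw [← conj_pow, hconj, (show Commute ⁅u, v⁆ v from (hc v).symm).mul_pow]
      have h2 : u * v ^ m * u⁻¹ = v ^ m := by
        have := hPcent _ (hpow v) u u.2
        refine Subtype.ext ?_
        simp only [Subgroup.coe_mul, Subgroup.coe_inv, SubmonoidClass.coe_pow]
        rw [this, mul_inv_cancel_right]
      rw [h2] at h1
      exact right_eq_mul.mp h1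
    intro c hc
    have : ∀ d ∈ Subgroup.closure {c : B | c ^ m = 1 ∧ ∀ w : B, w * c = c * w},
        d ^ m = 1 ∧ ∀ w : B, w * d = d * w := by
      intro d hd
      induction hd using Subgroup.closure_induction with
      | mem x hx => exact hx
      | one => simp
      | mul x y _ _ hx hy =>
        refine ⟨?_, fun w => by rw [← mul_assoc, hx.2 w, mul_assoc, hy.2 w, mul_assoc]⟩
        rw [(show Commute x y from hy.2 x).mul_pow, hx.1, hy.1, one_mul]
      | inv x _ hx =>
        exact ⟨by rw [inv_pow, hx.1, inv_one], fun w => (Commute.inv_right (hx.2 w)).eq⟩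
    exact (this c (hle hc)).1
  have h1 : z ^ m = 1 := congrArg Subtype.val (hexp ⟨z, hzB⟩ (hkill ⟨z, hzB⟩ hzP))
  have h2 := orderOf_dvd_of_pow_eq_one h1
  rw [hzo, hm] at h2
  exact Nat.not_dvd_ordCompl hp.out Nat.card_pos.ne' h2

/-- No such minimal counterexample has odd order. -/
theorem false_of_odd (h : Cex A B) (hA : ∀ x ∈ A, ∀ y ∈ A, x * y = y * x) (hB : ClassTwo B)
    (hodd : Odd (Nat.card G)) : False := by
  obtain ⟨p, hp, hpB⟩ := Nat.exists_prime_and_dvd
    (fun e => h.symm.A_ne_bot (Subgroup.card_eq_one.mp e) : Nat.card B ≠ 1)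
  haveI := Fact.mk hp
  have hp2 : p ≠ 2 := by
    rintro rfl
    exact Nat.not_even_iff_odd.mpr hodd
      (even_iff_two_dvd.mpr (hpB.trans (Subgroup.card_subgroup_dvd_card B)))
  obtain ⟨U, hUp, hUB, hU1, hUn, hUc, a₀, ha₀, hne, haN₀⟩ := exists_normalizes h hA hB hpB
  obtain ⟨q, hq, hqd⟩ := Nat.exists_prime_and_dvd (mt orderOf_eq_one_iff.mp hne)
  haveI := Fact.mk hq
  set a := a₀ ^ (orderOf a₀ / q) with ha
  have hao : orderOf a = q := orderOf_pow_orderOf_div (orderOf_pos a₀).ne' hqd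
  have haA : a ∈ A := pow_mem ha₀ _
  have hqA : q ∣ Nat.card A := hao ▸ Subgroup.orderOf_dvd_natCard A haA
  have haQ : a ∈ rCore q A := mem_rCore_of_orderOf h.nilA (k := 1) haA (by rw [hao, pow_one])
  have hpq : p ≠ q := fun e => hp.ne_one (Nat.eq_one_of_dvd_coprimes h.cop (e ▸ hqA) hpB)
  have h1 := eq_one_of_central_normalizer h hA hqA haQ fun ε hε hεN =>
    commute_of_normalizes h hA hB hp2 hpq hUp hUB hU1 hUn hUc haQ hao
      (pow_mem haN₀ _) hε hεN
  rw [h1, orderOf_one] at hao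
  exact hq.ne_one hao.symm

end CfsgLib.AbelianByClassTwo
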