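import Cfsg.Agent.AbelianByClassTwo.Simple

/-!
A product of an abelian group and a nilpotent group of class at most two is solvable.
The reductions to a simple group with factors of coprime orders are those of `NilProd.Main`.
-/

set_option autoImplicit false

open scoped Pointwise

namespace CfsgLib.AbelianByClassTwo

open Cfsg CfsgLib CfsgLib.Uniqueness CfsgLib.NilProd

universe u

/-- A product of an abelian group and a nilpotent group of class at most two is solvable. -/
theorem isSolvable_of_product :
    ∀ (n : ℕ) (G : Type u) [Group G] [Finite G], Nat.card G ≤ n → ∀ A B : Subgroup G,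
      (∀ x ∈ A, ∀ y ∈ A, x * y = y * x) → ClassTwo B →
      Group.IsNilpotent A → Group.IsNilpotent B →
      (∀ g : G, ∃ a ∈ A, ∃ b ∈ B, g = a * b) → Group.IsSolvable G := by
  intro n
  induction n with
  | zero =>
    intro G _ _ hn
    exact absurd hn (by have := Nat.card_pos (α := G); omega)
  | succ n ih =>
    intro G _ _ hn A B hAc hB2 hA hB hfac
    by_contra hns
    have hsub : ∀ L : Subgroup G, L ≠ ⊤ → Fac A B L → Group.IsSolvable L := by
      intro L hL hf
      haveI := hA
      haveI := hB
      refine ih L (card_le_pred hL hn) (A.subgroupOf L) (B.subgroupOf L)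
        (fun x hx y hy => Subtype.ext (hAc x hx y hy))
        (fun x hx y hy w hw => Subtype.ext (hB2 x hx y hy w hw))
        Constrained.isNilpotent_subgroupOf Constrained.isNilpotent_subgroupOf fun g => ?_
      obtain ⟨a, ha, haL, b, hb, he⟩ := hf g g.2
      exact ⟨⟨a, haL⟩, ha, ⟨b, Fac.right (A := A) (B := B) g.2 haL he⟩, hb, Subtype.ext he⟩
    have hquot : ∀ N : Subgroup G, N.Normal → N ≠ ⊥ → ∀ [N.Normal], Group.IsSolvable (G ⧸ N) := by
      intro N _ hN1 _
      have hlt : Nat.card (G ⧸ N) ≤ n := by
        have h1 := Subgroup.card_eq_card_quotient_mul_card_subgroup N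
        have h2 : 1 < Nat.card N := by
          rw [Finite.one_lt_card_iff_nontrivial, Subgroup.nontrivial_iff_ne_bot]; exact hN1
        have h3 := Nat.card_pos (α := G ⧸ N)
        nlinarith
      haveI := hA
      haveI := hB
      refine ih _ hlt (A.map (QuotientGroup.mk' N)) (B.map (QuotientGroup.mk' N))
        (by rintro _ ⟨x, hx, rfl⟩ _ ⟨y, hy, rfl⟩; rw [← map_mul, ← map_mul, hAc x hx y hy])
        (by
          rintro _ ⟨x, hx, rfl⟩ _ ⟨y, hy, rfl⟩ _ ⟨w, hw, rfl⟩
          simp only [← map_mul, ← map_inv, hB2 x hx y hy w hw])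
        (Group.nilpotent_of_surjective _ (MonoidHom.subgroupMap_surjective _ _))
        (Group.nilpotent_of_surjective _ (MonoidHom.subgroupMap_surjective _ _)) fun g => ?_
      obtain ⟨g, rfl⟩ := QuotientGroup.mk'_surjective N g
      obtain ⟨a, ha, b, hb, rfl⟩ := hfac g
      exact ⟨_, Subgroup.mem_map_of_mem _ ha, _, Subgroup.mem_map_of_mem _ hb, map_mul _ _ _⟩
    have hsolN : ∀ N : Subgroup G, N.Normal → Group.IsSolvable N → N = ⊥ := by
      intro N hN hs
      by_contra hN1
      haveI := hN
      haveI := hquot N hN hN1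
      haveI := hs
      exact hns (solvable_of_ker_le_range N.subtype (QuotientGroup.mk' N)
        (by rw [QuotientGroup.ker_mk', Subgroup.range_subtype]))
    have hmeet : ∀ M₁ M₂ : Subgroup G, M₁.Normal → M₂.Normal → M₁ ≠ ⊥ → M₂ ≠ ⊥ →
        M₁ ⊓ M₂ ≠ ⊥ := by
      intro M₁ M₂ h₁ h₂ h1 h2 e
      haveI := h₁
      haveI := h₂
      haveI := hquot M₁ h₁ h1
      haveI := hquot M₂ h₂ h2
      refine hns (solvable_of_solvable_injective
        (f := (QuotientGroup.mk' M₁).prod (QuotientGroup.mk' M₂)) ?_)
      rw [← MonoidHom.ker_eq_bot_iff, MonoidHom.ker_prod, QuotientGroup.ker_mk',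
        QuotientGroup.ker_mk', e]
    have htop : ∀ N : Subgroup G, N.Normal → N ≠ ⊥ → A ⊔ N = ⊤ ∧ B ⊔ N = ⊤ := by
      intro N hN hN1
      by_cases h : (A ⊔ N) ⊓ (B ⊔ N) = ⊤
      · exact ⟨top_le_iff.mp (h ▸ inf_le_left), top_le_iff.mp (h ▸ inf_le_right)⟩
      · exfalso
        have hf : Fac A B ((A ⊔ N) ⊓ (B ⊔ N)) := by
          intro g hg
          obtain ⟨a, ha, b, hb, rfl⟩ := hfac g
          refine ⟨a, ha, ⟨Subgroup.mem_sup_left ha, ?_⟩, b, hb, rfl⟩
          have := (B ⊔ N).mul_mem hg.2 (Subgroup.mem_sup_left (inv_mem hb))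
          rwa [mul_inv_cancel_right] at this
        haveI := hsub _ h hf
        exact hN1 (hsolN N hN (solvable_of_solvable_injective
          (f := Subgroup.inclusion (le_inf (le_sup_right (a := A)) (le_sup_right (a := B))))
          (Subgroup.inclusion_injective _)))
    -- coprime orders
    have hcop : (Nat.card A).Coprime (Nat.card B) := by
      refine Nat.coprime_of_dvd fun p hp hpA hpB => ?_
      haveI := Fact.mk hp
      have hO : Cfsg.pCore p G = ⊥ := by
        haveI : Group.IsNilpotent (Cfsg.pCore p G) := Constrained.isPGroup_pCore.isNilpotent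
        exact hsolN _ inferInstance inferInstance
      have hcomm : ∀ c : G, ∀ x ∈ rCore p A, ∀ y ∈ rCore p B,
          x * (c * y * c⁻¹) = c * y * c⁻¹ * x := by
        intro c x hx y hy
        have h1 := commIH p (n + 1) G hn (rCore p A) _ (isPGroup_rCore A)
          ((isPGroup_rCore B).map _) ((perm_rCore hA hB hfac p).conj c) x hx _
          (Subgroup.mem_map_of_mem _ hy)
        rw [hO, Subgroup.mem_bot] at h1
        exact mul_inv_eq_iff_eq_mul.mp (mul_inv_eq_one.mp h1)
      set M₁ := Subgroup.normalClosure (rCore p A : Set G) with hM₁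
      set M₂ := Subgroup.normalClosure (rCore p B : Set G) with hM₂
      have hne : ∀ {H : Subgroup G}, Group.IsNilpotent H → p ∣ Nat.card H →
          Subgroup.normalClosure (rCore p H : Set G) ≠ ⊥ := by
        intro H hH hpH e
        have h0 : rCore p H = ⊥ := le_bot_iff.mp (e ▸ Subgroup.le_normalClosure)
        have h1 := card_rCore hH p
        rw [h0, Subgroup.card_bot] at h1
        exact (Nat.one_lt_pow (hp.factorization_pos_of_dvd Nat.card_pos.ne' hpH).ne' hp.one_lt).ne h1
      have hc : ∀ u ∈ M₁, ∀ v ∈ M₂, u * v = v * u := by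
        intro u hu v hv
        have h2 : M₁ ≤ Subgroup.centralizer (M₂ : Set G) := by
          rw [hM₁, Subgroup.normalClosure, Subgroup.closure_le]
          intro z hz
          obtain ⟨x, hx, hxz⟩ := Group.mem_conjugatesOfSet_iff.1 hz
          obtain ⟨d, rfl⟩ := isConj_iff.1 hxz
          refine Subgroup.mem_centralizer_iff.mpr fun w hw => ?_
          have h3 : M₂ ≤ Subgroup.centralizer ({d * x * d⁻¹} : Set G) := by
            rw [hM₂, Subgroup.normalClosure, Subgroup.closure_le]
            intro t ht
            obtain ⟨y, hy, hyt⟩ := Group.mem_conjugatesOfSet_iff.1 ht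
            obtain ⟨c, rfl⟩ := isConj_iff.1 hyt
            refine Subgroup.mem_centralizer_singleton_iff.mpr ?_
            calc c * y * c⁻¹ * (d * x * d⁻¹)
                = d * ((d⁻¹ * c) * y * (d⁻¹ * c)⁻¹ * x) * d⁻¹ := by group
              _ = d * (x * ((d⁻¹ * c) * y * (d⁻¹ * c)⁻¹)) * d⁻¹ := by rw [hcomm _ x hx y hy]
              _ = _ := by group
          exact Subgroup.mem_centralizer_singleton_iff.mp (h3 hw)
        exact (Subgroup.mem_centralizer_iff.mp (h2 hu) v hv).symm
      have hM : Group.IsSolvable ↥(M₁ ⊓ M₂) :=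
        Group.isSolvable_of_comm fun u v => Subtype.ext (hc u u.2.1 v v.2.2)
      haveI : M₁.Normal := Subgroup.normalClosure_normal
      haveI : M₂.Normal := Subgroup.normalClosure_normal
      exact hmeet M₁ M₂ inferInstance inferInstance (hne hA hpA) (hne hB hpB)
        (hsolN _ inferInstance hM)
    -- simplicity
    have hsimple : ∀ N : Subgroup G, N.Normal → N = ⊥ ∨ N = ⊤ := by
      intro N hN
      refine or_iff_not_imp_left.mpr fun hN1 => ?_
      obtain ⟨h1, h2⟩ := htop N hN hN1
      haveI := hN
      have hdiv : ∀ C : Subgroup G, C ⊔ N = ⊤ → N.index ∣ Nat.card C := by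
        intro C hC
        rw [← Subgroup.relIndex_top_right, ← hC, Subgroup.relIndex_sup_right]
        exact Subgroup.index_dvd_card _
      exact Subgroup.index_eq_one.mp (Nat.eq_one_of_dvd_coprimes hcop (hdiv A h1) (hdiv B h2))
    have hcex : Cex A B := ⟨hA, hB, hcop, hfac, hsimple, hns, hsub⟩
    rcases Nat.even_or_odd (Nat.card G) with he | ho
    · rw [hcex.card_eq, even_iff_two_dvd] at he
      rcases Nat.prime_two.dvd_mul.mp he with h2 | h2
      · exact hcex.false_of_two_dvd h2
      · exact hcex.symm.false_of_two_dvd h2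
    · exact false_of_odd hcex hAc hB2 ho

end CfsgLib.AbelianByClassTwo
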